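import Cfsg.Agent.Recog.J1.Pres
import Cfsg.Agent.Recog.Tools
import Cfsg.Agent.Transfer.Tate
import Cfsg.Agent.Comp.J1.Main

/-! A simple group of order 175560 with an involution centraliser `2 × A₅` is `J₁`. -/

set_option autoImplicit false
set_option maxRecDepth 100000
set_option synthInstance.maxSize 4000

namespace CF.Recog.J1

open CF.Comp CF.Cod Subgroup Equiv

/-- the group `2 × A₅` as a table -/
abbrev T := El TH

/-- the group `2 × A₅` -/
abbrev K := Multiplicative (ZMod 2) × alternatingGroup (Fin 5)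

/-- the central involution -/
noncomputable def Z : T := El.w (wpow [1, 3, 5] 5)
noncomputable def A : T := Z * El.w [1]
noncomputable def B : T := Z * El.w [3]
noncomputable def C : T := Z * El.w [5]

/-- Coxeter generators -/
def kf : ℕ → K
  | 0 => (Multiplicative.ofAdd 1, ⟨swap 0 1 * swap 2 3, Perm.mem_alternatingGroup.2 (by decide)⟩)
  | 1 => (Multiplicative.ofAdd 1, ⟨swap 0 1 * swap 3 4, Perm.mem_alternatingGroup.2 (by decide)⟩)
  | 2 => (Multiplicative.ofAdd 1, ⟨swap 0 2 * swap 1 3, Perm.mem_alternatingGroup.2 (by decide)⟩)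
  | _ => 1

theorem kf_rels : ∀ r ∈ RH, ev kf r = 1 := by decide +kernel

theorem card_K : Nat.card K = 120 := by
  have := two_mul_nat_card_alternatingGroup (α := Fin 5)
  rw [Nat.card_perm, Nat.card_eq_fintype_card (α := Fin 5), Fintype.card_fin] at this
  rw [Nat.card_prod, Nat.card_eq_fintype_card (α := Multiplicative (ZMod 2))]
  exact this

theorem exists_iso : Nonempty (T ≃* K) := by
  have inj : Function.Injective (pH.lift kf_rels) :=
    (injective_iff_map_eq_one _).2 (by decide +kernel)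
  exact ⟨MulEquiv.ofBijective _ ((Nat.bijective_iff_injective_and_card _).2
    ⟨inj, El.card.trans card_K.symm⟩)⟩

/-- the sign -/
noncomputable def sg : T →* Multiplicative (ZMod 2) :=
  pH.lift (f := fun _ => Multiplicative.ofAdd 1) (by decide +kernel)

variable {G : Type*} [Group G]

/-- coordinates on the centraliser of `u` -/
structure Loc (u : G) (ψ : T →* G) : Prop where
  inj : Function.Injective ψ
  rng : ψ.range = Cen u
  z : ψ Z = u

theorem loc_of_iso {t : G} (ht : orderOf t = 2) (e : Cen t ≃* K) : ∃ ψ, Loc t ψ := by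
  obtain ⟨i⟩ := exists_iso
  let j := i.trans e.symm
  refine ⟨(Cen t).subtype.comp j.toMonoidHom, Subtype.val_injective.comp j.injective, ?_, ?_⟩
  · rw [MonoidHom.range_comp, MonoidHom.range_eq_top_of_surjective _ j.surjective,
      ← MonoidHom.range_eq_map, range_subtype]
  · obtain ⟨x, hx⟩ := j.surjective (self t)
    have h : ∀ c, c * x = x * c := fun c => j.injective (by
      rw [map_mul, map_mul, hx]; exact Subtype.ext (mem_cen.1 (j c).2))
    rcases (by decide +kernel : ∀ x : T, El.w [1] * x = x * El.w [1] → El.w [3] * x = x * El.w [3] →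
      El.w [5] * x = x * El.w [5] → x = 1 ∨ x = Z) x (h _) (h _) (h _) with rfl | rfl
    · exact absurd (congrArg Subtype.val (hx.symm.trans (map_one j))) (Invol.ne_one_of_orderOf ht)
    · exact congrArg Subtype.val hx

theorem Loc.conj {t : G} {ψ : T →* G} (h : Loc t ψ) (g : G) :
    Loc (g * t * g⁻¹) ((MulAut.conj g).toMonoidHom.comp ψ) := by
  refine ⟨(MulAut.conj g).injective.comp h.inj, ?_, by simp [h.z]⟩
  ext x
  rw [mem_cen, show x = g * (g⁻¹ * x * g) * g⁻¹ by group, conj_comm rfl rfl, ← mem_cen, ← h.rng]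
  exact ⟨fun ⟨c, hc⟩ => ⟨c, (MulAut.conj g).injective hc⟩, fun ⟨c, hc⟩ => ⟨c, congrArg (MulAut.conj g) hc⟩⟩

theorem Loc.ex {t : G} {ψ : T →* G} (h : Loc t ψ) {x : G} (hx : x * t = t * x) : ∃ c, ψ c = x :=
  h.rng.ge (mem_cen.2 hx)

theorem Loc.comm {t : G} {ψ : T →* G} (h : Loc t ψ) (c : T) : ψ c * t = t * ψ c :=
  mem_cen.1 (h.rng.le ⟨c, rfl⟩)

theorem Loc.card {t : G} {ψ : T →* G} (h : Loc t ψ) : Nat.card (Cen t) = 120 := by
  rw [← h.rng, card_range_of h.inj, El.card]; rfl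

/-- the five generators -/
def gn (a b c d e : G) : ℕ → G
  | 0 => a | 1 => b | 2 => c | 3 => d | 4 => e | _ => 1

/-- the relations inside the centraliser of `e` -/
def Fr (a b c e : G) : Prop := ∀ d, ∀ r ∈ R0, ev (gn a b c d e) r = 1

theorem map_gn {H : Type*} [Group H] (ψ : G →* H) (a b c d e : G) :
    (fun i => ψ (gn a b c d e i)) = gn (ψ a) (ψ b) (ψ c) (ψ d) (ψ e) := by
  funext i
  match i with
  | 0 | 1 | 2 | 3 | 4 => rfl
  | _ + 5 => exact map_one ψ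

theorem fr_of {a b c e : G} (h : ∀ r ∈ R0, ev (gn a b c 1 e) r = 1) : Fr a b c e := fun d r hr => by
  rw [← h r hr]
  revert r
  simp only [R0, List.forall_mem_cons, List.not_mem_nil, false_imp_iff, implies_true, and_true]
  exact ⟨rfl, rfl, rfl, rfl, rfl, rfl, rfl, rfl, rfl, rfl, rfl⟩

theorem Loc.fr {t : G} {ψ : T →* G} (h : Loc t ψ) :
    Fr (ψ A) (ψ B) (ψ C) t ∧ Fr (ψ A) (ψ B) (ψ A * ψ C) t := by
  have k : ∀ c : T, (∀ r ∈ R0, ev (gn A B c 1 Z) r = 1) → Fr (ψ A) (ψ B) (ψ c) t := fun c hc =>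
    fr_of fun r hr => by rw [← map_one ψ, ← h.z, ← map_gn, ← map_ev, hc r hr]
  rw [← map_mul]
  exact ⟨k _ (by decide +kernel), k _ (by decide +kernel)⟩

theorem collapse {X : List (List ℕ)} (E : Enum (lapp R0 X) hE (gensW 5) 1) {a b c d e : G}
    (F : Fr a b c e) (h : ∀ r ∈ X, ev (gn a b c d e) r = 1) : d * e = e * d := by
  have hr := rels_append (F d) h
  have k : ∀ u, u ++ [9] ++ u ++ [9] ∈ R0 → u ++ u ∈ R0 → ev (gn a b c d e) u ∈ Cen e := fun u h1 h2 => by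
    have h1 := F d _ h1
    have h2 := F d _ h2
    have h3 := F d [9, 9] (by decide +kernel)
    simp only [ev_append] at h1 h2
    exact mem_cen.2 (comm_of_sq h2 (by simpa [ev_cons, evL, gn] using h3)
      (by simpa [ev_cons, evL, gn, sq, mul_assoc] using h1))
  have h1 := E.relIndex hr (H := Cen e) (by
    simp only [hE, List.forall_mem_cons, List.not_mem_nil, false_imp_iff, implies_true, and_true]
    exact ⟨k _ (by decide +kernel) (by decide +kernel), k _ (by decide +kernel) (by decide +kernel),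
      k _ (by decide +kernel) (by decide +kernel), mem_cen.2 (by simp [ev_cons, evL, gn])⟩)
  have h2 : clo (gn a b c d e) (gensW 5) ≤ Cen e := relIndex_eq_one.1 (by omega)
  simpa [ev_cons, evL, gn] using mem_cen.1 (h2 (ev_mem_clo _ (w := [7]) (by decide)))

/-- the generators in the Janko group -/
noncomputable def jg : ℕ → Cfsg.Spor.J1 := evs CF.Comp.J1.g0 WJ

theorem rep2 : MatRep (tabP 11) Nat.cast (Equiv.refl _) (glMat Cfsg.Spor.J1) jg 5 M2 :=
  CF.Comp.J1.rep1.evs (by decide +kernel) (by decide +kernel)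

theorem bndJ {g : ℕ → G} (hr : ∀ r ∈ RA01, ev g r = 1) : Bound g (gensW 5) 175560 :=
  eA01.bound hr (e0.bound (rels_sub hr (by decide +kernel)) (bound_nil _))

theorem exists_inj {g : ℕ → G} (hr : ∀ r ∈ RA01, ev g r = 1) (h : ev g [1] ≠ 1) :
    ∃ φ : Cfsg.Spor.J1 →* G, Function.Injective φ :=
  haveI := CF.Comp.J1.simple
  ((bndJ (ug_rels _)).exists_inj (f := jg) (rep2.rels (glMat_inj _) (by decide +kernel))
    (CF.Comp.J1.rep1.top (glMat_inj _) CF.Comp.J1.top1 CF.Comp.J1.g0_one rep2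
      (fun _ h => evs_eq_one h) (us := XJ) (by decide +kernel))
    CF.Comp.J1.card hr (by decide) h).imp fun _ h => h.1

theorem dvd_three {n : ℕ} (h : n ∣ 120) (h2 : Odd n) (h5 : ¬ 5 ∣ n) : n ∣ 3 :=
  (by decide +kernel : ∀ n ≤ 120, n ∣ 120 → n % 2 = 1 → ¬ 5 ∣ n → n ∣ 3) n
    (Nat.le_of_dvd (by decide) h) h (Nat.odd_iff.1 h2) h5

section Five

variable [Finite G] {e : G} {ψ ψa ψb : T →* G}

theorem five (hG : Nat.card G = 175560) (h : Loc e ψ) (ha : Loc (ψ A) ψa) (hb : Loc (ψ A * e) ψb) :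
    ∃ O : Subgroup G, Odd (Nat.card O) ∧ O ≤ Cen (ψ (A * B)) ∧ e ∈ normalizer (O : Set G) ∧
      ∃ ρ ∈ O, orderOf ρ = 5 ∧ (ρ * ψ A = ψ A * ρ ∨ ρ * (ψ A * e) = ψ A * e * ρ) := by
  have : Fact (Nat.Prime 5) := ⟨by norm_num⟩
  have : Fact (Nat.Prime 3) := ⟨by norm_num⟩
  have f : Z * Z = 1 ∧ Z ≠ 1 ∧ A * A = 1 ∧ A ≠ 1 ∧ A ≠ Z ∧ (A * B) ^ 3 = 1 ∧ A * B ≠ 1 ∧
      A * (A * B) * A⁻¹ = (A * B)⁻¹ ∧ (A * B)⁻¹ ≠ A * B := by decide +kernel
  simp only [ne_eq, ← h.inj.eq_iff, map_mul ψ Z, map_mul ψ A A, map_mul ψ _ A⁻¹, map_mul ψ A (A * B),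
    map_pow, map_inv, map_one, h.z] at f
  obtain ⟨ee, e1, aa, a1, ae, y3, y1, ay, yy⟩ := f
  have f2 : ∀ x, x * e = e * x → x * ψ (A * B) = ψ (A * B) * x →
      x ^ 6 = 1 ∧ (x * x = 1 → x = 1 ∨ x = e) := fun x h1 h2 => by
    obtain ⟨c, rfl⟩ := h.ex h1
    have := (by decide +kernel : ∀ c : T, c * (A * B) = A * B * c →
      c ^ 6 = 1 ∧ (c * c = 1 → c = 1 ∨ c = Z)) c (h.inj (by rwa [map_mul ψ c, map_mul ψ _ c]))
    simpa only [← h.inj.eq_iff, map_mul, map_pow, map_one, h.z] using this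
  have ey := (h.comm (A * B)).symm
  have ea := h.comm A
  generalize ψ (A * B) = y at *
  generalize ψ A = a at *
  have oy : orderOf y = 3 := orderOf_eq_prime y3 y1
  have h4 : ¬ 4 ∣ Nat.card (Cen y) := not_four_dvd ee (mem_cen.2 ey) fun x hx h1 k hk => by
    have := f2 x h1 (mem_cen.1 hx)
    refine this.2 (by
      rw [← sq, ← orderOf_dvd_iff_pow_eq_one]
      have h1 := orderOf_dvd_of_pow_eq_one this.1
      obtain ⟨i, -, hi⟩ := (Nat.dvd_prime_pow Nat.prime_two).1 (orderOf_dvd_of_pow_eq_one hk)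
      rw [hi] at h1 ⊢
      exact (Nat.Coprime.pow_left i (by decide : Nat.Coprime 2 3)).dvd_of_dvd_mul_right
        (show _ ∣ 2 * 3 from h1))
  have odd := odd_residual h4
  set O := Cfsg.pResidualOf 2 (Cen y) with hO
  have Oy : O ≤ Cen y := CF.Loc.pResidualOf_le _ _
  have nz : ∀ g, g * y * g⁻¹ = y ∨ g * y * g⁻¹ = y⁻¹ → g ∈ normalizer (Cen y : Set G) := fun g hg =>
    mem_normalizer_fintype fun x hx => mem_cen.2 (by
      rcases hg with hg | hg
      · exact (conj_comm rfl hg).2 (mem_cen.1 hx)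
      · exact Commute.inv_right_iff.1 ((conj_comm rfl hg).2 (mem_cen.1 hx)))
  have nO := CF.Loc.normalizer_le_normalizer_pResidualOf 2 (Cen y)
  have ne : e ∈ normalizer (O : Set G) := nO (nz e (Or.inl (mul_inv_eq_iff_eq_mul.2 ey)))
  refine ⟨O, odd, Oy, ne, ?_⟩
  by_contra hn
  have k : ∀ x, Nat.card (Cen x) = 120 → (∀ ρ ∈ O, ρ * x = x * ρ → orderOf ρ ≠ 5) →
      Nat.card ↥(O ⊓ Cen x) ∣ 3 := fun x h1 h2 =>
    dvd_three (h1 ▸ card_dvd_of_le inf_le_right) (odd.of_dvd_nat (card_dvd_of_le inf_le_left)) fun h5 => by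
      obtain ⟨ρ, hρ⟩ := exists_prime_orderOf_dvd_card' 5 h5
      exact h2 ρ ρ.2.1 (mem_cen.1 ρ.2.2) ((orderOf_coe ρ).trans hρ)
  have h27 : Nat.card O ∣ 3 * 3 * 3 := by
    refine (Dvd.intro _ (four_formula aa ee ea a1 e1 ae (nO (nz a (Or.inr ay))) ne odd).symm).trans
      (Nat.mul_dvd_mul (Nat.mul_dvd_mul (k _ ha.card fun ρ h1 h2 h3 => hn ⟨ρ, h1, h3, Or.inl h2⟩)
        (k _ h.card fun ρ h1 h2 h3 => ?_)) (k _ hb.card fun ρ h1 h2 h3 => hn ⟨ρ, h1, h3, Or.inr h2⟩))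
    have := orderOf_dvd_of_pow_eq_one (f2 ρ h2 (mem_cen.1 (Oy h1))).1
    rw [h3] at this; exact absurd this (by decide)
  have h3 : Nat.card O ∣ 3 := (Nat.dvd_gcd h27 (hG ▸ card_subgroup_dvd_card O) :)
  have d2 : 2 ∣ Nat.card (Cen y) :=
    Invol.orderOf_eq_two_iff.2 ⟨ee, e1⟩ ▸ orderOf_dvd_natCard _ (mem_cen.2 ey)
  have d3 : 3 ∣ Nat.card (Cen y) := oy ▸ orderOf_dvd_natCard _ (mem_cen.2 rfl)
  have d6 : Nat.card (Cen y) = 6 := by
    obtain ⟨N, hN⟩ := Invol.exists_index_two_of_not_four_dvd (even_iff_two_dvd.2 d2) h4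
    have e2 := N.card_mul_index
    rw [hN] at e2
    have oN : Odd (Nat.card N) := Nat.odd_iff.2 (by omega)
    have : N.map (Cen y).subtype ≤ O := by
      rintro _ ⟨x, hx, rfl⟩
      exact CF.Loc.mem_pResidualOf x.2 (Nat.coprime_two_right.2 (oN.of_dvd_nat
        ((orderOf_coe x).symm ▸ orderOf_dvd_natCard _ hx)))
    have := (card_dvd_of_le this).trans h3
    rw [card_map_of_injective (Cen y).subtype_injective] at this
    have := Nat.le_of_dvd (by decide) this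
    have := Nat.card_pos (α := N)
    omega
  let P : Sylow 3 G := Sylow.ofCard (zpowers y) (by
    rw [Nat.card_zpowers, oy, hG, show (175560 : ℕ) = 3 ^ 1 * 58520 from rfl,
      Nat.factorization_mul (by decide) (by decide), Nat.Prime.factorization_pow (by norm_num)]
    simp [Nat.factorization_eq_zero_of_not_dvd (show ¬ 3 ∣ 58520 by decide)])
  have hP := card_sylow_modEq_one 3 G
  rw [P.card_eq_index_normalizer] at hP
  have i2 : (Cen y).relIndex (normalizer (P : Set G)) = 2 := by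
    have m : ∀ g ∈ normalizer (P : Set G), g * y * g⁻¹ = y ∨ g * y * g⁻¹ = y⁻¹ := fun g hg => by
      obtain ⟨i, hi, e⟩ := mem_zp3 y3 ((mem_normalizer_iff.1 hg y).1 (mem_zpowers y))
      obtain rfl | rfl | rfl : i = 0 ∨ i = 1 ∨ i = 2 := by omega
      · exact absurd (conj_eq_one_iff.1 (e.trans (pow_zero y))) y1
      · exact Or.inl (e.trans (pow_one y))
      · exact Or.inr (e.trans (eq_inv_of_mul_eq_one_left ((pow_succ y 2).symm.trans y3)))
    have an : a ∈ normalizer (P : Set G) := mem_normalizer_fintype fun x hx => by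
      obtain ⟨k, rfl⟩ := (hx : x ∈ zpowers y)
      exact ⟨-k, by rw [← conj_zpow, ay]; simp⟩
    refine index_eq_two_iff.2 ⟨⟨a, an⟩, fun g => ?_⟩
    simp only [mem_subgroupOf, coe_mul, mem_cen, ← mul_inv_eq_iff_eq_mul (c := y)]
    rw [show (g : G) * a * y * (g * a)⁻¹ = (g * y * (g : G)⁻¹)⁻¹ by
      rw [conj_inv, ← ay]; group]
    rcases m g g.2 with e | e <;> rw [e] <;> simp [yy]
  have le : Cen y ≤ normalizer (P : Set G) := fun g hg =>
    centralizer_le_normalizer _ fun x hx => comm_zp (mem_cen.1 hg).symm x hx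
  have e1 := relIndex_mul_index le
  have e2 := (Cen y).card_mul_index
  rw [i2] at e1
  rw [d6, hG] at e2
  rw [show (normalizer (P : Set G)).index = 14630 by omega] at hP
  exact absurd hP (by decide)

end Five

/-- the two relations fixing the position of `c` and `e` -/
abbrev Pos (x c d e : G) (i j : ℕ) : Prop := (c * d) ^ 3 * x ^ i = 1 ∧ (c * d * e) ^ 5 * x ^ j = 1

theorem factD : ∀ e : T, e * e = 1 → e ≠ 1 → e ≠ Z → ∀ c : T, c * c = 1 → c * e = e * c → c ≠ 1 →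
    c ≠ Z → c ≠ e → c ≠ Z * e → ∀ ρ : T, ρ ^ 5 = 1 → ρ ≠ 1 → e * ρ * e * ρ = ρ * (e * ρ * e) →
    ∃ k < 3, (e * ρ ^ k * (e * ρ ^ k) = 1 ∧ (e * ρ ^ k * e) ^ 5 = 1 ∧ e * ρ ^ k * e ≠ e * (e * ρ ^ k)) ∧
      (Pos Z c (e * ρ ^ k) e 0 1 ∨ Pos Z c (e * ρ ^ k) e 0 0 ∨ Pos Z c (e * ρ ^ k) e 1 1 ∨
        (Pos Z (Z * c) (e * ρ ^ k) e 0 1 ∧
          ∃ s, s * (Z * e) * s⁻¹ = c ∧ s * c * s⁻¹ = Z * e * c)) := by decide +kernel

theorem step {x e c ρ : G} {ψ : T →* G} (h : Loc x ψ) {O : Subgroup G} (odd : Odd (Nat.card O))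
    (ne : e ∈ normalizer (O : Set G)) (hρ : ρ ∈ O) (o5 : orderOf ρ = 5) (ρx : ρ * x = x * ρ)
    (ex : e * x = x * e) (cx : c * x = x * c) (ee : e * e = 1) (e1 : e ≠ 1) (e2 : e ≠ x)
    (cc : c * c = 1) (ce : c * e = e * c) (c1 : c ≠ 1) (c2 : c ≠ x) (c3 : c ≠ e) (c4 : c ≠ x * e) :
    ∃ k, (e * ρ ^ k * (e * ρ ^ k) = 1 ∧ (e * ρ ^ k * e) ^ 5 = 1 ∧ e * ρ ^ k * e ≠ e * (e * ρ ^ k)) ∧
      (Pos x c (e * ρ ^ k) e 0 1 ∨ Pos x c (e * ρ ^ k) e 0 0 ∨ Pos x c (e * ρ ^ k) e 1 1 ∨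
        (Pos x (x * c) (e * ρ ^ k) e 0 1 ∧
          ∃ s, s * x = x * s ∧ s * (x * e) * s⁻¹ = c ∧ s * c * s⁻¹ = x * e * c)) := by
  have r5 : ρ ^ 5 = 1 := o5 ▸ pow_orderOf_eq_one ρ
  have r1 : ρ ≠ 1 := by rintro rfl; simp at o5
  have m : e * ρ * e ∈ O := by
    have := (mem_normalizer_iff.1 ne ρ).1 hρ
    rwa [inv_eq_of_mul_eq_one_right ee] at this
  obtain ⟨e, rfl⟩ := h.ex ex
  obtain ⟨c, rfl⟩ := h.ex cx
  obtain ⟨ρ, rfl⟩ := h.ex ρx
  obtain rfl := h.z
  simp only [ne_eq, ← map_mul, ← map_pow, ← map_one ψ, h.inj.eq_iff] at ee e1 e2 cc ce c1 c2 c3 c4 r5 r1 m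
  have k : e * ρ * e * ρ = ρ * (e * ρ * e) := by
    refine ((by decide +kernel : ∀ r : T, r ^ 5 = 1 → ∀ s : T, s ^ 5 = 1 → s * r = r * s ∨
      ∃ i < 5, ∃ j < 5, r ^ i * s ^ j ≠ 1 ∧ (r ^ i * s ^ j) ^ 2 = 1) ρ r5 _ ?_).resolve_right ?_
    · have := conj_pow (a := e) (b := ρ) (i := 5)
      rwa [inv_eq_of_mul_eq_one_right ee, r5, mul_one, ee] at this
    · rintro ⟨i, -, j, -, h1, h2⟩
      have := orderOf_dvd_natCard _ (mul_mem (pow_mem hρ i) (pow_mem m j))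
      rw [← map_pow, ← map_pow, ← map_mul, orderOf_injective ψ h.inj, orderOf_eq_prime h2 h1] at this
      exact Nat.not_even_iff_odd.2 odd (even_iff_two_dvd.2 this)
  obtain ⟨k, -, h1, h2⟩ := factD e ee e1 e2 c cc ce c1 c2 c3 c4 ρ r5 r1 k
  refine ⟨k, ?_, h2.imp ?_ (Or.imp ?_ (Or.imp ?_ fun ⟨h3, s, h4⟩ => ⟨?_, ψ s, h.comm s, ?_⟩))⟩
  all_goals simp only [Pos, ne_eq, ← map_mul, ← map_pow, ← map_inv, ← map_one ψ, h.inj.eq_iff]
  exacts [h1, id, id, id, h3, h4]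

theorem relsA {a b c d e : G} {i j : ℕ} (h1 : d * d = 1) (h2 : (d * e) ^ 5 = 1) (h3 : (a * d) ^ 2 = 1)
    (h4 : (b * d) ^ 2 = 1) (h : Pos a c d e i j) : (i = 0 → j = 1 → ∀ r ∈ XA01, ev (gn a b c d e) r = 1) ∧
    (i = 0 → j = 0 → ∀ r ∈ XA00, ev (gn a b c d e) r = 1) ∧
    (i = 1 → j = 1 → ∀ r ∈ XA11, ev (gn a b c d e) r = 1) := by
  refine ⟨?_, ?_, ?_⟩ <;> rintro rfl rfl <;>
  simpa [Pos, XA01, XA00, XA11, ev_cons, evL, gn, pow_succ, mul_assoc] using
    (⟨h1, h2, h3, h4, h⟩ : _ ∧ _ ∧ _ ∧ _ ∧ _)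

theorem relsB {a b c d e : G} {i j : ℕ} (h1 : d * d = 1) (h2 : (d * e) ^ 5 = 1)
    (h3 : (a * e * d) ^ 2 = 1) (h4 : a * b * d * b * a * d = 1) (h : Pos (a * e) c d e i j) :
    (i = 0 → j = 1 → ∀ r ∈ XB01, ev (gn a b c d e) r = 1) ∧
    (i = 0 → j = 0 → ∀ r ∈ XB00, ev (gn a b c d e) r = 1) ∧
    (i = 1 → j = 1 → ∀ r ∈ XB11, ev (gn a b c d e) r = 1) := by
  refine ⟨?_, ?_, ?_⟩ <;> rintro rfl rfl <;>
  simpa [Pos, XB01, XB00, XB11, ev_cons, evL, gn, pow_succ, mul_assoc] using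
    (⟨h1, h2, h3, h4, h⟩ : _ ∧ _ ∧ _ ∧ _ ∧ _)

theorem sq_mul {a d : G} (aa : a * a = 1) (dd : d * d = 1) (h : a * d = d * a) : (a * d) ^ 2 = 1 := by
  rw [(show Commute a d from h).mul_pow, sq, sq, aa, dd, mul_one]

theorem exists_emb [Finite G] {e : G} {ψ ψa ψb : T →* G} (hG : Nat.card G = 175560) (h : Loc e ψ)
    (ha : Loc (ψ A) ψa) (hb : Loc (ψ A * e) ψb) : ∃ φ : Cfsg.Spor.J1 →* G, Function.Injective φ := by
  obtain ⟨O, odd, Oy, ne, ρ, hρ, o5, hx⟩ := five hG h ha hb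
  obtain ⟨F1, F2⟩ := h.fr
  obtain ⟨s', f0⟩ : ∃ s : T, s * A * s⁻¹ = C ∧ s * C * s⁻¹ = A * C := by decide +kernel
  have f : Z * Z = 1 ∧ Z ≠ 1 ∧ A * A = 1 ∧ A ≠ 1 ∧ B * B = 1 ∧ C * C = 1 ∧ Z ≠ A ∧ C * A = A * C ∧
      C ≠ 1 ∧ C ≠ A ∧ C ≠ Z ∧ C ≠ A * Z ∧ A * Z * Z = A ∧ Z ≠ A * Z ∧ C * (A * Z) = A * Z * C ∧
      A * Z * (A * Z) = 1 := by decide +kernel
  simp only [ne_eq, ← h.inj.eq_iff, map_mul, map_inv, map_one, h.z] at f f0
  obtain ⟨ee, e1, aa, a1, bb, cc, ea, ca, c1, c2, c3, c4, aee, e3, cae, ae2⟩ := f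
  have ρy := mem_cen.1 (Oy hρ)
  have ae := h.comm A
  have be := h.comm B
  have ce := h.comm C
  have se := h.comm s'
  rw [map_mul] at ρy
  generalize ψ A = a at *
  generalize ψ B = b at *
  generalize ψ C = c at *
  generalize ψ s' = s' at *
  have dy : ∀ k, Commute (a * b) (e * ρ ^ k) := fun k =>
    ((show Commute a e from ae).mul_left be).mul_right ((show Commute ρ _ from ρy).symm.pow_right k)
  rcases hx with hx | hx
  · obtain ⟨k, ⟨dd, de, nd⟩, hp⟩ := step ha odd ne hρ o5 hx ae.symm ca ee e1 ea cc ce c1 c2 c3 c4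
    have da : Commute a (e * ρ ^ k) :=
      (show Commute a e from ae).mul_right ((show Commute ρ _ from hx).symm.pow_right k)
    have db : Commute b (e * ρ ^ k) := by
      have := da.mul_left (dy k)
      rwa [← mul_assoc, aa, one_mul] at this
    have R := fun {c i j} => relsA (c := c) (i := i) (j := j) dd de (sq_mul aa dd da) (sq_mul bb dd db)
    rcases hp with hp | hp | hp | hp
    · exact exists_inj (rels_append (F1 _) ((R hp).1 rfl rfl)) (by simpa [ev_cons, evL, gn] using a1)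
    · exact absurd (collapse eA00 F1 ((R hp).2.1 rfl rfl)) nd
    · exact absurd (collapse eA11 F1 ((R hp).2.2 rfl rfl)) nd
    · exact exists_inj (rels_append (F2 _) ((R hp.1).1 rfl rfl)) (by simpa [ev_cons, evL, gn] using a1)
  · have ex : Commute e (a * e) := (show Commute a e from ae).symm.mul_right rfl
    obtain ⟨k, ⟨dd, de, nd⟩, hp⟩ := step hb odd ne hρ o5 hx ex cae ee e1 e3 cc ce c1 c4 c3
      (aee.symm ▸ c2)
    have da : Commute (a * e) (e * ρ ^ k) :=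
      ex.symm.mul_right ((show Commute ρ _ from hx).symm.pow_right k)
    have R := fun {i j} => relsB (c := c) (i := i) (j := j) (b := b) dd de (sq_mul ae2 dd da) (by
      rw [(dy k).eq]
      calc _ = e * ρ ^ k * (a * (b * b) * a) * (e * ρ ^ k) := by group
        _ = 1 := by rw [bb, mul_one a, aa, mul_one, dd])
    rcases hp with hp | hp | hp | ⟨-, s, h1, h2, h3⟩
    · exact absurd (collapse eB01 F1 ((R hp).1 rfl rfl)) nd
    · exact absurd (collapse eB00 F1 ((R hp).2.1 rfl rfl)) nd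
    · exact absurd (collapse eB11 F1 ((R hp).2.2 rfl rfl)) nd
    · rw [aee] at h2 h3
      have k1 : s'⁻¹ * s * a = a * (s'⁻¹ * s) := by
        rw [← mul_inv_eq_iff_eq_mul]
        calc _ = s'⁻¹ * (s * a * s⁻¹) * s' := by group
          _ = a := by rw [h2, ← f0.1]; group
      have k2 : s'⁻¹ * s * c = c * (s'⁻¹ * s) := by
        rw [← mul_inv_eq_iff_eq_mul]
        calc _ = s'⁻¹ * (s * c * s⁻¹) * s' := by group
          _ = c := by rw [h3, ← f0.2]; group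
      have k3 : s'⁻¹ * s * e = e * (s'⁻¹ * s) := by
        obtain ⟨g, hg⟩ := ha.ex k1
        obtain ⟨c, rfl⟩ := ha.ex ca
        obtain ⟨e, rfl⟩ := ha.ex ae.symm
        rw [← hg] at k2 ⊢
        rw [← ha.z] at c2
        simp only [← map_mul, ← map_one ψa, ha.inj.eq_iff] at k2 cc c1 c2 ce ⊢
        exact (by decide +kernel : ∀ c : T, c * c = 1 → c ≠ 1 → c ≠ Z → ∀ g, g * c = c * g →
          ∀ e, c * e = e * c → g * e = e * g) c cc c1 c2 g k2 e ce
      have k4 : Commute s e := by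
        have := (show Commute s' e from se).mul_left k3
        rwa [mul_inv_cancel_left] at this
      have k5 : Commute s a := by
        have := (show Commute s (a * e) from h1).mul_right k4
        rwa [aee] at this
      exact absurd (by rw [← h2, k5.eq, mul_inv_cancel_right]) c2

/-- all involutions of the centraliser are conjugate -/
theorem Loc.all [Finite G] [IsSimpleGroup G] {t : G} {ψ : T →* G} (h : Loc t ψ)
    (h2 : ¬ 2 ∣ (Cen t).index) (hG : Nat.card G ≠ 2) (c : T) (c2 : c * c = 1) (c1 : c ≠ 1) :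
    ∃ g, g * t * g⁻¹ = ψ c := by
  have i2 : (sg.ker.map ψ).relIndex (Cen t) = 2 := by
    rw [← h.rng, MonoidHom.range_eq_map, relIndex_map_map_of_injective _ _ h.inj, relIndex_top_right,
      index_ker, MonoidHom.range_eq_top_of_surjective _ (by decide +kernel : ∀ y, ∃ x, sg x = y),
      card_top, Nat.card_eq_fintype_card]
    rfl
  have k : ∀ c : T, c * c = 1 → c ≠ 1 → ∃ g, g * ψ c * g⁻¹ = ψ A := fun c c2 c1 => by
    have o2 : orderOf (ψ c) = 2 := (orderOf_injective ψ h.inj c).trans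
      (Invol.orderOf_eq_two_iff.2 ⟨c2, c1⟩)
    by_cases hc : ∀ g : G, g * ψ c * g⁻¹ ∉ sg.ker.map ψ
    · obtain ⟨N, hN, i, m⟩ := CF.Transfer.thompson_transfer h2 i2 (h.rng.le ⟨c, rfl⟩) o2 hc
      rcases hN.eq_bot_or_eq_top with rfl | rfl
      · exact absurd (index_bot.symm.trans i) hG
      · exact absurd trivial m
    · push Not at hc
      obtain ⟨g, d, hd, e⟩ := hc
      have o3 := Invol.orderOf_eq_two_iff.1 ((orderOf_injective ψ h.inj d).symm.trans
        (e ▸ (Invol.orderOf_conj _ _).trans o2))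
      obtain ⟨s, hs⟩ := (by decide +kernel : ∀ d : T, d * d = 1 → d ≠ 1 → sg d = 1 →
        ∃ s, s * d * s⁻¹ = A) d o3.1 o3.2 hd
      exact ⟨ψ s * g, by rw [← hs, map_mul, map_mul, map_inv, e]; group⟩
  obtain ⟨g, hg⟩ := k Z (by decide +kernel) (by decide +kernel)
  obtain ⟨g', hg'⟩ := k c c2 c1
  exact ⟨g'⁻¹ * g, by rw [← h.z, show ψ c = g'⁻¹ * ψ A * g' by rw [← hg']; group, ← hg]; group⟩

/-- recognition of the first Janko group -/
theorem isoJ1 [Finite G] [IsSimpleGroup G] {t : G} (ht : orderOf t = 2)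
    (e : centralizer ({t} : Set G) ≃* Multiplicative (ZMod 2) × alternatingGroup (Fin 5))
    (hG : Nat.card G = 175560) : Cfsg.Spor.IsoJ1 G := by
  obtain ⟨ψ, h⟩ := loc_of_iso ht e
  have i := (Cen t).card_mul_index
  rw [h.card, hG] at i
  obtain ⟨g, hg⟩ := h.all (by omega) (by omega) A (by decide +kernel) (by decide +kernel)
  obtain ⟨g', hg'⟩ := h.all (by omega) (by omega) (A * Z) (by decide +kernel) (by decide +kernel)
  rw [map_mul, h.z] at hg'
  obtain ⟨φ, hφ⟩ := exists_emb hG h (hg ▸ h.conj g) (hg' ▸ h.conj g')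
  exact ⟨(MulEquiv.ofBijective φ ((Nat.bijective_iff_injective_and_card _).2
    ⟨hφ, CF.Comp.J1.card.trans hG.symm⟩)).symm⟩

end CF.Recog.J1
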